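import Mathlib
import Cfsg.Prelude
import Cfsg.Agent.Lib.Helper3.Char
import Cfsg.Agent.Lib.Helper3.CharCent
import Cfsg.Agent.Lib.Helper3.CharKer
import Cfsg.Agent.Lib.Helper3.BlkOrth4
import Cfsg.Agent.Lib.Helper3.CharMono
import Cfsg.Agent.Lib.Helper3.CharArith

set_option autoImplicit false

open Cfsg
open Cfsg.Agent.Lib.Helper3.Char Cfsg.Agent.Lib.Helper3.CharCent Cfsg.Agent.Lib.Helper3.CharKer Cfsg.Agent.Lib.Helper3.BlkOrth4 Cfsg.Agent.Lib.Helper3.CharMono Cfsg.Agent.Lib.Helper3.CharArith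

namespace Cfsg.Agent.Lib.Helper3.CharCod

universe u

theorem cod_data (G : Type u) [Group G] [Finite G] :
    ∃ (K : Cfsg.IrrCharacter G → Subgroup G) (d : Cfsg.IrrCharacter G → ℕ),
      (∀ χ, (K χ).Normal) ∧ (∀ (χ : Cfsg.IrrCharacter G) (g : G), g ∈ K χ ↔ (χ : G → ℂ) g = (χ : G → ℂ) 1) ∧
      (∀ χ, 0 < d χ) ∧ (∀ χ : Cfsg.IrrCharacter G, (χ : G → ℂ) 1 = (d χ : ℂ)) ∧
      (∀ χ, d χ ∣ (K χ).index) ∧
      (∀ χ : Cfsg.IrrCharacter G, Cfsg.charDegree (χ : G → ℂ) = d χ) ∧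
      (∀ χ : Cfsg.IrrCharacter G, Nat.card G / (Nat.card {g : G // (χ : G → ℂ) g = (χ : G → ℂ) 1} *
        Cfsg.charDegree (χ : G → ℂ)) = (K χ).index / d χ) := by
  classical
  have _fg : Fintype G := Fintype.ofFinite G
  have hker : ∀ χ : Cfsg.IrrCharacter G, ∃ K : Subgroup G, K.Normal ∧
      ∀ g, g ∈ K ↔ (χ : G → ℂ) g = (χ : G → ℂ) 1 :=
    fun χ => Cfsg.Agent.Lib.Helper3.CharMono.exists_ker (isCharacter_of_irr χ.2)
  choose K hKn hK using hker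
  choose d hd0 hd using fun χ : Cfsg.IrrCharacter G => irr_one_pos χ.2
  have hdeg : ∀ χ : Cfsg.IrrCharacter G, Cfsg.charDegree (χ : G → ℂ) = d χ :=
    fun χ => charDegree_eq (hd χ)
  have hcardK : ∀ χ : Cfsg.IrrCharacter G,
      Nat.card {g : G // (χ : G → ℂ) g = (χ : G → ℂ) 1} = Nat.card (K χ) :=
    fun χ => Nat.card_congr (Equiv.subtypeEquivRight (fun g => (hK χ g).symm))
  have hddvd : ∀ χ : Cfsg.IrrCharacter G, d χ ∣ (K χ).index :=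
    fun χ => irr_degree_dvd_index χ.2 (K χ) (fun h hh => (hK χ h).mp hh) (d χ) (hd χ)
  refine ⟨K, d, hKn, hK, hd0, hd, hddvd, hdeg, ?_⟩
  intro χ
  rw [hcardK, hdeg, ← (K χ).card_mul_index, Nat.mul_div_mul_left _ _ Nat.card_pos]

theorem exists_triv (G : Type u) [Group G] [Finite G] :
    ∃ χ₀ : Cfsg.IrrCharacter G, (χ₀ : G → ℂ) = fun _ => 1 := by
  have _fg : Fintype G := Fintype.ofFinite G
  exact ⟨⟨_, isIrr_one G⟩, rfl⟩

theorem card_eq_sum_sq (G : Type u) [Group G] [Fintype G] [Fintype (Cfsg.IrrCharacter G)]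
    (d : Cfsg.IrrCharacter G → ℕ) (hd : ∀ χ : Cfsg.IrrCharacter G, (χ : G → ℂ) 1 = (d χ : ℂ)) :
    Nat.card G = ∑ χ : Cfsg.IrrCharacter G, d χ ^ 2 := by
  classical
  have h2 := sum_sq_ker (⊥ : Subgroup G)
  have e : (Nat.card G : ℂ) = ((∑ χ : Cfsg.IrrCharacter G, d χ ^ 2 : ℕ) : ℂ) := by
    rw [h2, Subgroup.card_bot]
    push_cast
    rw [one_mul]
    refine Finset.sum_congr rfl (fun χ _ => ?_)
    rw [if_pos, hd]
    intro u hu
    rw [Subgroup.mem_bot] at hu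
    rw [hu]
  exact_mod_cast e

end Cfsg.Agent.Lib.Helper3.CharCod
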