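import Mathlib
import Cfsg.Prelude.Def_Characters
import Cfsg.Prelude.Def_Blocks
import Cfsg.Agent.Lib.Helper3.Char
import Cfsg.Agent.Lib.Helper3.CharCore
import Cfsg.Agent.Lib.Helper3.CharArith
import Cfsg.Agent.Lib.Helper3.CharInd
import Cfsg.Agent.Lib.Helper3.CharInt
import Cfsg.Agent.Lib.Helper3.CharTable
import Cfsg.Agent.Lib.Helper3.CharKer
import Cfsg.Agent.Lib.Helper3.BlkOrth2
import Cfsg.Agent.Lib.Helper3.BlkOrth4

set_option autoImplicit false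

namespace Cfsg.Agent.Lib.Helper3.StructConst

open scoped ComplexConjugate
open Cfsg.Agent.Lib.Helper3.Char Cfsg.Agent.Lib.Helper3.CharCore Cfsg.Agent.Lib.Helper3.CharArith
  Cfsg.Agent.Lib.Helper3.CharInd Cfsg.Agent.Lib.Helper3.CharInt Cfsg.Agent.Lib.Helper3.CharTable
  Cfsg.Agent.Lib.Helper3.CharKer Cfsg.Agent.Lib.Helper3.BlkOrth2 Cfsg.Agent.Lib.Helper3.BlkOrth4

theorem sc_char {G : Type*} [Group G] [Fintype G] (f₁ f₂ : G → ℂ)
    (h₁ : Cfsg.IsClassFunction G f₁) (h₂ : Cfsg.IsClassFunction G f₂) (χ : G → ℂ)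
    (hχ : Cfsg.IsIrrCharacter G χ) (w : G) :
    ∑ g : G, ∑ h : G, f₁ g * f₂ h * χ (h * g * w) =
      ((∑ g : G, f₁ g * χ g) / χ 1) * ((∑ g : G, f₂ g * χ g) / χ 1) * χ w := by
  have h1 : ∀ g : G, ∑ h : G, f₁ g * f₂ h * χ (h * g * w) =
      ((∑ g : G, f₂ g * χ g) / χ 1) * (f₁ g * χ (g * w)) := by
    intro g
    have h2 : ∀ h : G, f₁ g * f₂ h * χ (h * g * w) = f₁ g * (f₂ h * χ (h * (g * w))) :=
      fun h => by rw [mul_assoc h g w]; ring
    rw [Finset.sum_congr rfl (fun h _ => h2 h), ← Finset.mul_sum, conv_char f₂ h₂ χ hχ (g * w)]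
    ring
  rw [Finset.sum_congr rfl (fun g _ => h1 g), ← Finset.mul_sum, conv_char f₁ h₁ χ hχ w]
  ring

theorem sc_sum {G : Type*} [Group G] [Fintype G] [DecidableEq G]
    [Fintype (Cfsg.IrrCharacter G)] (f₁ f₂ : G → ℂ)
    (h₁ : Cfsg.IsClassFunction G f₁) (h₂ : Cfsg.IsClassFunction G f₂) (w : G) :
    ∑ χ : Cfsg.IrrCharacter G, ((∑ g : G, f₁ g * (χ : G → ℂ) g) / (χ : G → ℂ) 1) *
      ((∑ g : G, f₂ g * (χ : G → ℂ) g) / (χ : G → ℂ) 1) * (χ : G → ℂ) w * (χ : G → ℂ) 1 =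
    (Nat.card G : ℂ) * ∑ g : G, ∑ h : G, (if h * g * w = 1 then f₁ g * f₂ h else 0) := by
  have h1 : ∀ χ : Cfsg.IrrCharacter G,
      ((∑ g : G, f₁ g * (χ : G → ℂ) g) / (χ : G → ℂ) 1) *
      ((∑ g : G, f₂ g * (χ : G → ℂ) g) / (χ : G → ℂ) 1) * (χ : G → ℂ) w * (χ : G → ℂ) 1 =
      ∑ g : G, ∑ h : G, f₁ g * f₂ h * ((χ : G → ℂ) (h * g * w) * (χ : G → ℂ) 1) := by
    intro χ
    rw [← sc_char f₁ f₂ h₁ h₂ _ χ.2 w, Finset.sum_mul]
    refine Finset.sum_congr rfl (fun g _ => ?_)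
    rw [Finset.sum_mul]
    refine Finset.sum_congr rfl (fun h _ => ?_)
    ring
  rw [Finset.sum_congr rfl (fun χ _ => h1 χ), Finset.sum_comm, Finset.mul_sum]
  refine Finset.sum_congr rfl (fun g _ => ?_)
  rw [Finset.sum_comm, Finset.mul_sum]
  refine Finset.sum_congr rfl (fun h _ => ?_)
  rw [← Finset.mul_sum, delta_one (h * g * w)]
  split_ifs <;> ring

theorem sc_main {G : Type*} [Group G] [Fintype G] [DecidableEq G]
    [Fintype (Cfsg.IrrCharacter G)] (P : Subgroup G) [Fintype P] (f₁ f₂ : G → ℂ)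
    (h₁ : Cfsg.IsClassFunction G f₁) (h₂ : Cfsg.IsClassFunction G f₂)
    (hz : ∀ y ∈ P, y ≠ 1 →
      ∑ g : G, ∑ h : G, (if h * g * y = 1 then f₁ g * f₂ h else 0) = 0) :
    ∃ mm : Cfsg.IrrCharacter G → ℕ,
      ∑ χ : Cfsg.IrrCharacter G, (∑ g : G, f₁ g * (χ : G → ℂ) g) *
        (∑ g : G, f₂ g * (χ : G → ℂ) g) * (mm χ : ℂ) / (χ : G → ℂ) 1 =
        (Nat.card G : ℂ) * (∑ g : G, f₁ g * f₂ g⁻¹) / (Nat.card P : ℂ) := by
  have hone : ∑ g : G, ∑ h : G, (if h * g * 1 = 1 then f₁ g * f₂ h else 0) =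
      ∑ g : G, f₁ g * f₂ g⁻¹ := by
    refine Finset.sum_congr rfl (fun g _ => ?_)
    rw [Finset.sum_eq_single g⁻¹]
    · rw [if_pos (by group)]
    · intro h _ hne
      rw [if_neg]
      intro h1
      apply hne
      rw [mul_one] at h1
      exact eq_inv_of_mul_eq_one_left h1
    · intro h
      exact absurd (Finset.mem_univ _) h
  have hsumP : ∑ y : P, ∑ χ : Cfsg.IrrCharacter G,
      ((∑ g : G, f₁ g * (χ : G → ℂ) g) / (χ : G → ℂ) 1) *
      ((∑ g : G, f₂ g * (χ : G → ℂ) g) / (χ : G → ℂ) 1) * (χ : G → ℂ) (y : G) *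
        (χ : G → ℂ) 1 = (Nat.card G : ℂ) * ∑ g : G, f₁ g * f₂ g⁻¹ := by
    rw [Finset.sum_congr rfl (fun (y : P) _ => sc_sum f₁ f₂ h₁ h₂ (y : G)),
      Finset.sum_eq_single (1 : P)]
    · rw [Subgroup.coe_one, hone]
    · intro y _ hy1
      rw [hz (y : G) y.2 (fun h => hy1 (Subtype.ext h)), mul_zero]
    · intro h
      exact absurd (Finset.mem_univ _) h
  have hm : ∀ χ : Cfsg.IrrCharacter G, ∃ m : ℕ,
      ∑ y : P, (χ : G → ℂ) (y : G) = (Nat.card P : ℂ) * (m : ℂ) := by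
    intro χ
    have hres : Cfsg.IsCharacter P (fun z : P => (χ : G → ℂ) z) :=
      comp_isCharacter P.subtype (isCharacter_of_irr χ.2)
    obtain ⟨k, hk⟩ := inner_char_nat hres (isCharacter_of_irr (isIrr_one P))
    unfold Cfsg.classInner at hk
    simp only [map_one, mul_one] at hk
    have hc0 : (Nat.card P : ℂ) ≠ 0 := by exact_mod_cast Nat.card_pos.ne'
    rw [inv_mul_eq_iff_eq_mul₀ hc0] at hk
    exact ⟨k, hk⟩
  choose mm hmm using hm
  refine ⟨mm, ?_⟩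
  have hpc0 : (Nat.card P : ℂ) ≠ 0 := by exact_mod_cast Nat.card_pos.ne'
  rw [Finset.sum_comm] at hsumP
  have h1 : ∀ χ : Cfsg.IrrCharacter G, ∑ y : P,
      ((∑ g : G, f₁ g * (χ : G → ℂ) g) / (χ : G → ℂ) 1) *
      ((∑ g : G, f₂ g * (χ : G → ℂ) g) / (χ : G → ℂ) 1) * (χ : G → ℂ) (y : G) *
        (χ : G → ℂ) 1 = (Nat.card P : ℂ) * ((∑ g : G, f₁ g * (χ : G → ℂ) g) *
        (∑ g : G, f₂ g * (χ : G → ℂ) g) * (mm χ : ℂ) / (χ : G → ℂ) 1) := by
    intro χ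
    have hχ1 := irr_one_ne_zero χ.2
    have h2 : ∀ y : P,
        ((∑ g : G, f₁ g * (χ : G → ℂ) g) / (χ : G → ℂ) 1) *
        ((∑ g : G, f₂ g * (χ : G → ℂ) g) / (χ : G → ℂ) 1) * (χ : G → ℂ) (y : G) *
          (χ : G → ℂ) 1 = ((∑ g : G, f₁ g * (χ : G → ℂ) g) / (χ : G → ℂ) 1) *
        ((∑ g : G, f₂ g * (χ : G → ℂ) g) / (χ : G → ℂ) 1) * (χ : G → ℂ) 1 *
          (χ : G → ℂ) (y : G) := fun y => by ring
    rw [Finset.sum_congr rfl (fun y _ => h2 y), ← Finset.mul_sum, hmm χ]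
    field_simp
  rw [Finset.sum_congr rfl (fun χ _ => h1 χ), ← Finset.mul_sum] at hsumP
  rw [eq_div_iff hpc0, ← hsumP]
  ring

theorem sc_contra {G : Type*} [Group G] [Finite G] [Fintype (Cfsg.IrrCharacter G)] (p : ℕ)
    (hp : p.Prime) (c a : ℕ) (hca : a < c) (A : Cfsg.IrrCharacter G → ℂ)
    (hA : ∀ χ, IsIntegral ℤ (A χ)) (T : ℕ) (hT0 : T ≠ 0) (hT : T.factorization p = a)
    (hsum : ∑ χ : Cfsg.IrrCharacter G, A χ / (χ : G → ℂ) 1 = (T : ℂ) / ((p ^ c : ℕ) : ℂ)) :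
    ∃ χ : Cfsg.IrrCharacter G, p ^ (c - a) ∣ Cfsg.charDegree (χ : G → ℂ) := by
  by_contra hno
  simp only [not_exists] at hno
  obtain ⟨Q, hQ⟩ : ∃ Q : ℕ,
      Q = Nat.card G / p ^ (Nat.card G).factorization p * p ^ (c - a - 1) := ⟨_, rfl⟩
  have hdeg : ∀ χ : Cfsg.IrrCharacter G, ∃ q : ℕ, (q : ℂ) * (χ : G → ℂ) 1 = (Q : ℂ) := by
    intro χ
    obtain ⟨n, hn0, hn1, hndvd⟩ := irr_degree_dvd_card χ.2
    have hnp : ¬ p ^ (c - a) ∣ n := by
      have h0 := hno χ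
      rwa [charDegree_eq hn1] at h0
    have hdv : n ∣ Q := by
      have h1 := Nat.ordProj_mul_ordCompl_eq_self n p
      have h2 : n / p ^ n.factorization p ∣ Nat.card G / p ^ (Nat.card G).factorization p :=
        Nat.ordCompl_dvd_ordCompl_of_dvd hndvd p
      have h3 : n.factorization p ≤ c - a - 1 := by
        by_contra hlt
        rw [not_le] at hlt
        apply hnp
        have h4 : c - a ≤ n.factorization p := by omega
        exact (pow_dvd_pow p h4).trans (Nat.ordProj_dvd n p)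
      rw [← h1, mul_comm, hQ]
      exact Nat.mul_dvd_mul h2 (pow_dvd_pow p h3)
    obtain ⟨q, hq⟩ := hdv
    exact ⟨q, by rw [hn1, hq]; push_cast; ring⟩
  choose q hq using hdeg
  have hint : IsIntegral ℤ (∑ χ : Cfsg.IrrCharacter G, A χ * (q χ : ℂ)) := by
    refine IsIntegral.sum _ (fun χ _ => ?_)
    exact (hA χ).mul (isIntegral_natCast _)
  have heq : ∑ χ : Cfsg.IrrCharacter G, A χ * (q χ : ℂ) =
      (Q : ℂ) * ((T : ℂ) / ((p ^ c : ℕ) : ℂ)) := by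
    rw [← hsum, Finset.mul_sum]
    refine Finset.sum_congr rfl (fun χ _ => ?_)
    have hχ1 := irr_one_ne_zero χ.2
    rw [← hq χ]
    field_simp
  obtain ⟨s, hs⟩ : ∃ s : ℕ, s = T / p ^ a := ⟨_, rfl⟩
  have hCs : T = p ^ a * s := by
    rw [hs, ← hT]
    exact (Nat.ordProj_mul_ordCompl_eq_self _ p).symm
  have hps : ¬ p ∣ s := by
    rw [hs, ← hT]
    exact Nat.not_dvd_ordCompl hp hT0
  have hpN : ¬ p ∣ Nat.card G / p ^ (Nat.card G).factorization p :=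
    Nat.not_dvd_ordCompl hp Nat.card_pos.ne'
  have hval : (Q : ℂ) * ((T : ℂ) / ((p ^ c : ℕ) : ℂ)) =
      ((Nat.card G / p ^ (Nat.card G).factorization p * s : ℕ) : ℂ) / (p : ℂ) := by
    rw [hQ, hCs]
    have hpow : p ^ c = p ^ (c - a - 1) * p ^ a * p := by
      rw [← pow_add, ← pow_succ]
      congr 1
      omega
    rw [hpow]
    push_cast
    have hp0 : (p : ℂ) ≠ 0 := by exact_mod_cast hp.ne_zero
    field_simp
  rw [heq, hval] at hint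
  have hdvd := nat_dvd_of_isIntegral_div _ p hp.ne_zero hint
  rcases (Nat.Prime.dvd_mul hp).mp hdvd with h | h
  · exact hpN h
  · exact hps h

end Cfsg.Agent.Lib.Helper3.StructConst
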